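import Groth.Agent.Dual.H370.KillStalk
import Groth.Agent.PerfB.FlatPull
import Groth.Agent.Dual.H337.ProjC
import Groth.Agent.Dcoh.MonPull292
import Groth.Agent.S0017
import Groth.Agent.Fdesc.StructMod

/-!
# Flat base change for `Hom(O_Z, -)` on modules

For a cartesian square `Z' = X' ×_X Z`, `i : Z ⟶ X` a closed immersion, `f : X' ⟶ X`:

* `nonempty_pull_push`: `f^* i_* O_Z ≅ i'_* O_{Z'}`;
* `kills_pullback`: the pullback of a module killed by the ideal of `i` is killed by the ideal of `i'`;
* `homOBC`: `g^* Hom(O_Z, F) ≅ Hom(O_{Z'}, f^* F)` naturally in `F`, for `f` flat and the ideal of `i` locally finitely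
  generated.
-/

set_option autoImplicit false
set_option linter.style.haveILetI false
universe u

open AlgebraicGeometry CategoryTheory CategoryTheory.Limits TopologicalSpace Opposite

namespace Groth.Agent.Dual.H370.PullKill

open Groth.Agent.Ega1.SubSheaf Groth.Agent.Ega1.ClosedKill Groth.Agent.Ega1
  Groth.Agent.Dual.H370.KillSub Groth.Agent.Dual.H370.HomOKill Groth.Agent.Dual.H370.KillStalk
  Groth.Agent.CycB.StalkExact Groth.Agent.Fdesc.PullbackStalk Groth.Agent.PerfB.FlatPull

variable {Z X Z' X' : Scheme.{u}} {i : Z ⟶ X} [IsClosedImmersion i] {f : X' ⟶ X} {i' : Z' ⟶ X'}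
  [IsClosedImmersion i'] {g : Z' ⟶ Z}

/-- `f^* i_* O_Z ≅ i'_* O_{Z'}`. -/
theorem nonempty_pull_push (hsq : IsPullback g i' i f) :
    Nonempty ((Scheme.Modules.pullback f).obj
      ((Scheme.Modules.pushforward i).obj (Coh.structureModule Z)) ≅
      (Scheme.Modules.pushforward i').obj (Coh.structureModule Z')) := by
  have h : Coh.IsQCoh (Coh.structureModule Z) :=
    (Groth.Agent.Fdesc.StructMod.isCoh_structureModule Z).1
  obtain ⟨e⟩ := Groth.Agent.S0017.result i f g i' hsq (Coh.structureModule Z)
  exact ⟨e ≪≫ (Scheme.Modules.pushforward i').mapIso (pullbackUnit g)⟩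

open scoped Groth.Agent.Dcoh.MonCat in
open MonoidalCategory in
/-- The pullback of a module killed by the ideal of `i` is killed by the ideal of `i'`. -/
theorem kills_pullback (hsq : IsPullback g i' i f) {M : X.Modules} (hM : Kills i.ker M) :
    Kills i'.ker ((Scheme.Modules.pullback f).obj M) := by
  have h1 := hM.isIso_unit i
  let _ : (Scheme.Modules.pullback f).Monoidal := Groth.Agent.Dcoh.MonPull.monPull f
  obtain ⟨e⟩ := nonempty_pull_push hsq
  let E := (Scheme.Modules.pushforward i).obj (Coh.structureModule Z)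
  let E' := (Scheme.Modules.pushforward i').obj (Coh.structureModule Z')
  let e1 : M ⊗ E ≅ M := (Groth.Agent.Dual.H337.ProjC.flipPushIso i).app M ≪≫
    (@asIso _ _ _ _ ((Scheme.Modules.pullbackPushforwardAdjunction i).unit.app M) h1).symm
  let e2 : (Scheme.Modules.pullback f).obj M ⊗ E' ≅ (Scheme.Modules.pushforward i').obj
      ((Scheme.Modules.pullback i').obj ((Scheme.Modules.pullback f).obj M)) :=
    (Groth.Agent.Dual.H337.ProjC.flipPushIso i').app ((Scheme.Modules.pullback f).obj M)
  let e3 : (Scheme.Modules.pullback f).obj M ≅ (Scheme.Modules.pushforward i').obj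
      ((Scheme.Modules.pullback i').obj ((Scheme.Modules.pullback f).obj M)) :=
    (Scheme.Modules.pullback f).mapIso e1.symm ≪≫
      (Functor.Monoidal.μIso (Scheme.Modules.pullback f) M E).symm ≪≫
      whiskerLeftIso ((Scheme.Modules.pullback f).obj M) e ≪≫ e2
  exact (kills_pushforward i' _).of_iso e3.symm

theorem app_eq_zero_of_eq {A B : Scheme.{u}} {p q : A ⟶ B} (h : p = q) (U : B.Opens) (a : Γ(B, U))
    (ha : p.app U a = 0) : q.app U a = 0 := by
  subst h
  exact ha

variable [Dual3.HasHomO i] [Dual3.HasHomO i']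

/-- The stalks of `i'_* Hom(O_{Z'}, f^*F)` inside those of `f^*F` come from `f^* i_* Hom(O_Z, F)`. -/
theorem mem_range_stalk (hsq : IsPullback g i' i f) [IsLocallyNoetherian X] [Flat f]
    (F : X.Modules) (x : X')
    (t : ((Scheme.Modules.pushforward i').obj ((Dual3.homO i').obj
      ((Scheme.Modules.pullback f).obj F))).presheaf.stalk x) :
    ∃ n, stalkLin ((Scheme.Modules.pullback f).map (ev i F)) x n =
      stalkLin (ev i' ((Scheme.Modules.pullback f).obj F)) x t := by
  obtain ⟨_, ⟨U, hU, rfl⟩, hxU, -⟩ :=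
    X.isBasis_affineOpens.exists_subset_of_mem_open (show f.base x ∈ (⊤ : X.Opens) from trivial)
      (⊤ : X.Opens).2
  have hN : IsNoetherianRing Γ(X, U) := IsLocallyNoetherian.component_noetherian ⟨U, hU⟩
  obtain ⟨r, a, ha⟩ := Submodule.fg_iff_exists_fin_generating_family.1
    ((isNoetherianRing_iff_ideal_fg _).1 hN (i.ker.ideal ⟨U, hU⟩))
  have ha' : i.ker.ideal ⟨U, hU⟩ = Ideal.span (Set.range a) := ha.symm
  have h1 : ∀ j, f.stalkMap x (X.presheaf.germ U (f.base x) hxU (a j)) •
      stalkLin (ev i' ((Scheme.Modules.pullback f).obj F)) x t = 0 := by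
    intro j
    have hj : i.app U (a j) = 0 := by
      have : a j ∈ i.ker.ideal ⟨U, hU⟩ := by
        rw [ha']
        exact Ideal.subset_span ⟨j, rfl⟩
      rwa [Scheme.Hom.ker_apply, RingHom.mem_ker] at this
    have hj' : i'.app (f ⁻¹ᵁ U) (f.app U (a j)) = 0 := by
      have h2 : (g ≫ i).app U (a j) = 0 := by
        rw [Scheme.Hom.comp_app]
        exact (congrArg (g.app (i ⁻¹ᵁ U)).hom hj).trans (map_zero _)
      have h3 := app_eq_zero_of_eq hsq.w U (a j) h2
      rw [Scheme.Hom.comp_app] at h3
      exact h3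
    have h4 := smul_stalk_of_kills i' (kills_pushforward i' _)
      (ev i' ((Scheme.Modules.pullback f).obj F)) (U := f ⁻¹ᵁ U) (f.app U (a j)) hj' x hxU t
    refine Eq.trans (congrArg (fun z => z •
      stalkLin (ev i' ((Scheme.Modules.pullback f).obj F)) x t) ?_) h4
    exact ConcreteCategory.congr_hom (Scheme.Hom.germ_stalkMap f U x hxU) (a j)
  letI := stalkAlg f x
  haveI := Groth.Agent.PerfC.FlatExact.flat_stalkAlg f x
  let e := stalkPullbackEquiv f F x
  have h2 : ∀ j, X.presheaf.germ U (f.base x) hxU (a j) •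
      e.symm (stalkLin (ev i' ((Scheme.Modules.pullback f).obj F)) x t) = 0 := by
    intro j
    have h5 : X.presheaf.germ U (f.base x) hxU (a j) •
        e.symm (stalkLin (ev i' ((Scheme.Modules.pullback f).obj F)) x t) =
        f.stalkMap x (X.presheaf.germ U (f.base x) hxU (a j)) •
          e.symm (stalkLin (ev i' ((Scheme.Modules.pullback f).obj F)) x t) :=
      (algebraMap_smul (X'.presheaf.stalk x) (X.presheaf.germ U (f.base x) hxU (a j))
        (e.symm (stalkLin (ev i' ((Scheme.Modules.pullback f).obj F)) x t))).symm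
    rw [h5, ← map_smul, h1 j, map_zero]
  obtain ⟨z, hz⟩ := mem_range_lTensor (R := X.presheaf.stalk (f.base x))
    (S := X'.presheaf.stalk x) (M := F.presheaf.stalk (f.base x))
    (fun j => X.presheaf.germ U (f.base x) hxU (a j)) _ h2
  have key : ∀ z, ∃ n, stalkLin ((Scheme.Modules.pullback f).map (ev i F)) x n =
      e ((ann (M := F.presheaf.stalk (f.base x)) (fun j =>
        X.presheaf.germ U (f.base x) hxU (a j))).subtype.lTensor (X'.presheaf.stalk x) z) := by
    intro z
    induction z using TensorProduct.induction_on with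
    | zero => exact ⟨0, by rw [map_zero, map_zero, map_zero]⟩
    | add z w hz hw =>
      obtain ⟨n, hn⟩ := hz
      obtain ⟨m, hm⟩ := hw
      exact ⟨n + m, by rw [map_add, hn, hm, map_add, map_add]⟩
    | tmul b m =>
      obtain ⟨n, hn⟩ := mem_range_stalk_ev i F (U := ⟨U, hU⟩) a ha' (f.base x) hxU m.1 m.2
      refine ⟨stalkPullbackEquiv f _ x (b ⊗ₜ n), ?_⟩
      rw [Groth.Agent.PerfC.FlatExact.stalkLin_pullback, LinearMap.lTensor_tmul,
        LinearMap.lTensor_tmul, hn]
      rfl
  obtain ⟨n, hn⟩ := key z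
  refine ⟨n, hn.trans ?_⟩
  rw [hz]
  exact e.apply_symm_apply _

/-- `f^* i_* Hom(O_Z, F) ≅ i'_* Hom(O_{Z'}, f^*F)` as submodules of `f^* F`. -/
theorem exists_compare (hsq : IsPullback g i' i f) [IsLocallyNoetherian X] [Flat f]
    (F : X.Modules) :
    ∃ e : (Scheme.Modules.pullback f).obj ((Scheme.Modules.pushforward i).obj
        ((Dual3.homO i).obj F)) ≅ (Scheme.Modules.pushforward i').obj
        ((Dual3.homO i').obj ((Scheme.Modules.pullback f).obj F)),
      e.hom ≫ ev i' ((Scheme.Modules.pullback f).obj F) =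
        (Scheme.Modules.pullback f).map (ev i F) := by
  obtain ⟨α, hα⟩ := exists_factor i' (kills_pullback (f := f) (i' := i') hsq
    (kills_pushforward i ((Dual3.homO i).obj F))) ((Scheme.Modules.pullback f).map (ev i F))
  have h1 : Mono ((Scheme.Modules.pullback f).map (ev i F)) := inferInstance
  have h2 : Mono α := by
    rw [← hα] at h1
    exact mono_of_mono α (ev i' ((Scheme.Modules.pullback f).obj F))
  have h3 : Epi α := by
    rw [Groth.Agent.PerfC.FlatExact.epi_iff_stalkLin]
    intro x t
    obtain ⟨n, hn⟩ := mem_range_stalk hsq F x t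
    refine ⟨n, stalkLin_injective (ev i' ((Scheme.Modules.pullback f).obj F)) x ?_⟩
    rw [← hn, ← hα, stalkLin_comp]
    rfl
  have h4 : IsIso α := isIso_of_mono_of_epi α
  exact ⟨asIso α, hα⟩

/-- `f^* i_* Hom(O_Z, -) ≅ i'_* Hom(O_{Z'}, f^*-)`. -/
noncomputable def compareIso (hsq : IsPullback g i' i f) [IsLocallyNoetherian X] [Flat f] :
    Dual3.homO i ⋙ Scheme.Modules.pushforward i ⋙ Scheme.Modules.pullback f ≅
      Scheme.Modules.pullback f ⋙ Dual3.homO i' ⋙ Scheme.Modules.pushforward i' :=
  NatIso.ofComponents (fun F => (exists_compare hsq F).choose) (fun {F G} φ => by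
    have hF := (exists_compare hsq F).choose_spec
    have hG := (exists_compare hsq G).choose_spec
    rw [← cancel_mono (ev i' ((Scheme.Modules.pullback f).obj G)), Category.assoc, Category.assoc,
      hG]
    have n1 : (Scheme.Modules.pushforward i).map ((Dual3.homO i).map φ) ≫ ev i G = ev i F ≫ φ :=
      (Dual3.homOAdj i).counit.naturality φ
    have n2 : (Scheme.Modules.pushforward i').map ((Dual3.homO i').map
        ((Scheme.Modules.pullback f).map φ)) ≫ ev i' ((Scheme.Modules.pullback f).obj G) =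
        ev i' ((Scheme.Modules.pullback f).obj F) ≫ (Scheme.Modules.pullback f).map φ :=
      (Dual3.homOAdj i').counit.naturality ((Scheme.Modules.pullback f).map φ)
    refine Eq.trans ?_ (congrArg (fun t => (exists_compare hsq F).choose.hom ≫ t) n2.symm)
    rw [reassoc_of% hF, ← Functor.map_comp, ← n1, Functor.map_comp]
    rfl)

/-- `g^* Hom(O_Z, -) ≅ Hom(O_{Z'}, f^*-)`. -/
noncomputable def homOBC (hsq : IsPullback g i' i f) [IsLocallyNoetherian X] [Flat f] :
    Dual3.homO i ⋙ Scheme.Modules.pullback g ≅ Scheme.Modules.pullback f ⋙ Dual3.homO i' :=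
  Functor.isoWhiskerLeft (Dual3.homO i)
      ((Functor.leftUnitor _).symm ≪≫ Functor.isoWhiskerRight
        (asIso (Scheme.Modules.pullbackPushforwardAdjunction i).counit).symm _ ≪≫
        Functor.associator _ _ _ ≪≫ Functor.isoWhiskerLeft _
          (Scheme.Modules.pullbackComp g i ≪≫ Scheme.Modules.pullbackCongr hsq.w ≪≫
            (Scheme.Modules.pullbackComp i' f).symm) ≪≫ (Functor.associator _ _ _).symm) ≪≫
    (Functor.associator _ _ _).symm ≪≫ Functor.isoWhiskerRight (compareIso hsq) _ ≪≫
    Functor.associator _ _ _ ≪≫ Functor.isoWhiskerLeft _ (Functor.associator _ _ _ ≪≫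
      Functor.isoWhiskerLeft _ (asIso (Scheme.Modules.pullbackPushforwardAdjunction i').counit) ≪≫
      Functor.rightUnitor _)

end Groth.Agent.Dual.H370.PullKill
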