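import Groth.Agent.Dual.H370.RHPull
import Groth.Agent.Dual.H370.PullKill
import Groth.Agent.Dual.H337.PushR
import Groth.Agent.Dual.H337.CohR
import Groth.Agent.Etrest.RDer1

/-!
# `f^*` of an injective module is acyclic for `Hom(O_{Z'}, -)`, `f` flat
-/

set_option autoImplicit false
universe u

open AlgebraicGeometry CategoryTheory CategoryTheory.Limits

attribute [local instance] HasDerivedCategory.standard

namespace Groth.Agent.Dual.H370.Acyc

open Groth.Agent.PerfC.RHomD Groth.Agent.Dual.H337.PushR Groth.Agent.PerfB.FlatPull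
  Groth.Agent.Dual.H370.RHPull Groth.Agent.Dual.H370.PullKill Groth.Agent.PerfC.ClosedPush

variable {Z X : Scheme.{u}} (i : Z ⟶ X) [IsClosedImmersion i] [Dual3.HasHomO i]
  [EnoughInjectives X.Modules]

/-- `i_* R^n Hom(O_Z, M) ≅ H^n RHom(i_* O_Z, M)`. -/
theorem nonempty_push_rightDerived (M : X.Modules) (n : ℕ) :
    Nonempty ((Scheme.Modules.pushforward i).obj (((Dual3.homO i).rightDerived n).obj M) ≅
      DCoh.HD ((RH (DCoh.inD X ((Scheme.Modules.pushforward i).obj
        (Coh.structureModule Z)))).obj (DCoh.inD X M)) (n : ℤ)) := by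
  let S := (DerivedCategory.Plus.singleFunctor X.Modules 0).obj M
  obtain ⟨e⟩ := nonempty_push_RHomOPlus i S
  let e1 : (DerivedCategory.homologyFunctor Z.Modules (n : ℤ)).obj ((Dual3.RHomOPlus i).obj S).obj ≅
      ((Dual3.homO i).rightDerived n).obj M :=
    (DerivedCategory.Plus.homologyFunctor Z.Modules (n : ℤ)).mapIso
      ((Groth.Agent.Etrest.RDer1.RGIso (Dual3.homO i)).app S) ≪≫
      (Groth.Agent.Etrest.RDer1.hSingleIso (Dual3.homO i) n).app M
  exact ⟨(Scheme.Modules.pushforward i).mapIso e1.symm ≪≫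
    ((Groth.Agent.PerfA.ExactD.mapHomology (Scheme.Modules.pushforward i) (n : ℤ)).app _).symm ≪≫
    (DerivedCategory.homologyFunctor X.Modules (n : ℤ)).mapIso e⟩

variable {Z' X' : Scheme.{u}} {f : X' ⟶ X} (i' : Z' ⟶ X') {g : Z' ⟶ Z} [IsClosedImmersion i']
  [Dual3.HasHomO i'] [EnoughInjectives X'.Modules]

/-- The pullback of an injective module by a flat morphism is acyclic for `Hom(O_{Z'}, -)`. -/
theorem isZero_rightDerived [IsLocallyNoetherian X] [Flat f] (hsq : IsPullback g i' i f)
    (M : X.Modules) [Injective M] (n : ℕ) (hn : 0 < n) :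
    IsZero (((Dual3.homO i').rightDerived n).obj ((Scheme.Modules.pullback f).obj M)) := by
  let E := (Scheme.Modules.pushforward i).obj (Coh.structureModule Z)
  let E' := (Scheme.Modules.pushforward i').obj (Coh.structureModule Z')
  have h1 : IsZero (DCoh.HD ((RH (DCoh.inD X E)).obj (DCoh.inD X M)) (n : ℤ)) := by
    obtain ⟨e⟩ := nonempty_push_rightDerived i M n
    obtain ⟨k, rfl⟩ : ∃ k, n = k + 1 := ⟨n - 1, by omega⟩
    exact ((Scheme.Modules.pushforward i).map_isZero
      (Functor.isZero_rightDerived_obj_injective_succ (Dual3.homO i) k M)).of_iso e.symm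
  have h2 : (DCoh.inD X M).IsGE 0 := inferInstance
  have h3 := isZero_HD_rh_pull f (fun m => Groth.Agent.Dual.H337.CohR.pc_push i m) 0 h2 n h1
  obtain ⟨e⟩ := nonempty_pull_push hsq
  let a : (pullbackD f).obj (DCoh.inD X E) ≅ DCoh.inD X' E' :=
    ((Scheme.Modules.pullback f).mapDerivedCategorySingleFunctor 0).app E ≪≫
      (DerivedCategory.singleFunctor X'.Modules 0).mapIso e
  let b : (pullbackD f).obj (DCoh.inD X M) ≅ DCoh.inD X' ((Scheme.Modules.pullback f).obj M) :=
    ((Scheme.Modules.pullback f).mapDerivedCategorySingleFunctor 0).app M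
  obtain ⟨e'⟩ := nonempty_push_rightDerived i' ((Scheme.Modules.pullback f).obj M) n
  refine isZero_of_isZero_pushforward i' (h3.of_iso (e' ≪≫ ?_))
  exact (DerivedCategory.homologyFunctor X'.Modules (n : ℤ)).mapIso
    (rhIso a _ ≪≫ (RH _).mapIso b.symm)

end Groth.Agent.Dual.H370.Acyc
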