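import Groth.Agent.Dual.H370.KillSub
import Groth.Agent.PerfC.ClosedPush
import Groth.Prelude.Def_Dual3

/-!
# `i_* Hom(O_Z, F)` is the subsheaf of sections of `F` killed by the ideal of the closed immersion `i`

* `isIso_counit`: `i^* i_* N ≅ N` for a closed immersion;
* `exists_factor`, `factor_ext`: maps from modules killed by the ideal of `i` factor uniquely through
  `i_* Hom(O_Z, F) ⟶ F`;
* `exists_iso_killSub`, `mono_counit`.
-/

set_option autoImplicit false
universe u

open AlgebraicGeometry CategoryTheory CategoryTheory.Limits TopologicalSpace Opposite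

namespace Groth.Agent.Dual.H370.HomOKill

open Groth.Agent.Ega1.SubSheaf Groth.Agent.Ega1.ClosedKill Groth.Agent.Ega1
  Groth.Agent.Dual.H370.KillSub

variable {X Z : Scheme.{u}} (i : Z ⟶ X) [IsClosedImmersion i]

/-- Direct image along a closed immersion reflects isomorphisms. -/
theorem isIso_of_isIso_pushforward {M N : Z.Modules} (φ : M ⟶ N)
    [IsIso ((Scheme.Modules.pushforward i).map φ)] : IsIso φ := by
  have h1 : IsZero (kernel φ) := Groth.Agent.PerfC.ClosedPush.isZero_of_isZero_pushforward i
    ((isZero_kernel_of_mono ((Scheme.Modules.pushforward i).map φ)).of_iso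
      (PreservesKernel.iso (Scheme.Modules.pushforward i) φ))
  have h2 : IsZero (cokernel φ) := Groth.Agent.PerfC.ClosedPush.isZero_of_isZero_pushforward i
    ((isZero_cokernel_of_epi ((Scheme.Modules.pushforward i).map φ)).of_iso
      (PreservesCokernel.iso (Scheme.Modules.pushforward i) φ))
  have : Mono φ := Preadditive.mono_of_isZero_kernel φ h1
  have : Epi φ := Preadditive.epi_of_isZero_cokernel φ h2
  exact isIso_of_mono_of_epi φ

/-- `i^* i_* N ⟶ N` is an isomorphism for a closed immersion `i`. -/
theorem isIso_counit (N : Z.Modules) :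
    IsIso ((Scheme.Modules.pullbackPushforwardAdjunction i).counit.app N) := by
  have h1 : IsIso ((Scheme.Modules.pullbackPushforwardAdjunction i).unit.app
      ((Scheme.Modules.pushforward i).obj N)) := (kills_pushforward i N).isIso_unit i
  have h2 := (Scheme.Modules.pullbackPushforwardAdjunction i).right_triangle_components N
  have h3 : IsIso ((Scheme.Modules.pushforward i).map
      ((Scheme.Modules.pullbackPushforwardAdjunction i).counit.app N)) := by
    rw [IsIso.eq_inv_of_hom_inv_id h2]
    infer_instance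
  exact isIso_of_isIso_pushforward i _

/-- The counit of `i^* ⊣ i_*` is an isomorphism. -/
instance isIso_counit' : IsIso (Scheme.Modules.pullbackPushforwardAdjunction i).counit :=
  haveI := isIso_counit i
  NatIso.isIso_of_isIso_app _

/-- `i_*` is fully faithful for a closed immersion `i`. -/
noncomputable def fullyFaithful : (Scheme.Modules.pushforward i).FullyFaithful :=
  (Scheme.Modules.pullbackPushforwardAdjunction i).fullyFaithfulROfIsIsoCounit

variable [Dual3.HasHomO i] (F : X.Modules)

/-- The map `i_* Hom(O_Z, F) ⟶ F`. -/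
noncomputable abbrev ev : (Scheme.Modules.pushforward i).obj ((Dual3.homO i).obj F) ⟶ F :=
  (Dual3.homOAdj i).counit.app F

variable {F}

/-- A map from a module killed by the ideal of `i` factors through `i_* Hom(O_Z, F)`. -/
theorem exists_factor {M : X.Modules} (hM : Kills i.ker M) (φ : M ⟶ F) :
    ∃ ψ : M ⟶ (Scheme.Modules.pushforward i).obj ((Dual3.homO i).obj F), ψ ≫ ev i F = φ := by
  have h1 := hM.isIso_unit i
  let u := (Scheme.Modules.pullbackPushforwardAdjunction i).unit.app M
  let θ : (Scheme.Modules.pullback i).obj M ⟶ (Dual3.homO i).obj F :=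
    (Dual3.homOAdj i).homEquiv _ _ (inv u ≫ φ)
  refine ⟨u ≫ (Scheme.Modules.pushforward i).map θ, ?_⟩
  have h2 : (Scheme.Modules.pushforward i).map θ ≫ ev i F = inv u ≫ φ := by
    have := (Dual3.homOAdj i).homEquiv_counit (X := (Scheme.Modules.pullback i).obj M) (Y := F)
      (g := θ)
    rw [← this]
    exact ((Dual3.homOAdj i).homEquiv _ _).symm_apply_apply _
  rw [Category.assoc, h2, IsIso.hom_inv_id_assoc]

/-- Uniqueness of the factorization. -/
theorem factor_ext {M : X.Modules} (hM : Kills i.ker M)
    {ψ ψ' : M ⟶ (Scheme.Modules.pushforward i).obj ((Dual3.homO i).obj F)}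
    (h : ψ ≫ ev i F = ψ' ≫ ev i F) : ψ = ψ' := by
  have h1 := hM.isIso_unit i
  let u := (Scheme.Modules.pullbackPushforwardAdjunction i).unit.app M
  let FF := fullyFaithful i
  obtain ⟨θ, hθ⟩ := FF.map_surjective (inv u ≫ ψ)
  obtain ⟨θ', hθ'⟩ := FF.map_surjective (inv u ≫ ψ')
  have h2 : θ = θ' := by
    apply ((Dual3.homOAdj i).homEquiv _ _).symm.injective
    rw [Adjunction.homEquiv_counit, Adjunction.homEquiv_counit, hθ, hθ', Category.assoc,
      Category.assoc]
    exact congrArg (fun t => inv u ≫ t) h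
  have h3 : inv u ≫ ψ = inv u ≫ ψ' := by rw [← hθ, ← hθ', h2]
  exact (cancel_epi (inv u)).1 h3

variable (F)

/-- `i_* Hom(O_Z, F)` is the submodule of sections of `F` killed by the ideal of `i`. -/
theorem exists_iso_killSub : ∃ e : (Scheme.Modules.pushforward i).obj ((Dual3.homO i).obj F) ≅
    (killSub i.ker F).toModules, e.hom ≫ (killSub i.ker F).ι = ev i F := by
  obtain ⟨φ, hφ⟩ := exists_lift_killSub (kills_pushforward i ((Dual3.homO i).obj F)) (ev i F)
  obtain ⟨ψ, hψ⟩ := exists_factor i (kills_killSub i.ker F) (killSub i.ker F).ι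
  refine ⟨⟨φ, ψ, ?_, ?_⟩, hφ⟩
  · apply factor_ext i (kills_pushforward i ((Dual3.homO i).obj F))
    rw [Category.assoc, hψ, hφ, Category.id_comp]
  · rw [← cancel_mono (killSub i.ker F).ι, Category.assoc, hφ, hψ, Category.id_comp]

/-- `i_* Hom(O_Z, F) ⟶ F` is a monomorphism. -/
instance mono_ev : Mono (ev i F) := by
  obtain ⟨e, he⟩ := exists_iso_killSub i F
  rw [← he]
  infer_instance

theorem mem_killSub_iff {U : X.Opens} (s : Γ(F, U)) :
    s ∈ (killSub i.ker F).obj U ↔ ∃ t, (ev i F).app U t = s := by
  obtain ⟨e, he⟩ := exists_iso_killSub i F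
  rw [(killSub i.ker F).mem_iff_exists]
  constructor
  · rintro ⟨t, rfl⟩
    refine ⟨e.inv.app U t, ?_⟩
    have : e.inv ≫ ev i F = (killSub i.ker F).ι := by rw [← he, Iso.inv_hom_id_assoc]
    rw [← this]
    rfl
  · rintro ⟨t, rfl⟩
    refine ⟨e.hom.app U t, ?_⟩
    rw [← he]
    rfl

end Groth.Agent.Dual.H370.HomOKill
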