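import Groth.Agent.Dual.H370.HomOKill
import Groth.Agent.PerfC.FlatExact
import Mathlib.LinearAlgebra.TensorProduct.Pi
import Mathlib.AlgebraicGeometry.Noetherian

/-!
# Stalks of `i_* Hom(O_Z, F)` and flat base change

* `mem_range_lTensor`: elements of `S ⊗ M` killed by finitely many elements of `R`, `S` flat over `R`.
* `mem_range_stalk_ev`: an element of `F_x` killed by generators of the ideal of `i` near `x` comes from
  `i_* Hom(O_Z, F)`.
* `smul_stalk_ev`: conversely.
* `mem_range_stalk_pullback_ev`: the same for the pullback by a flat morphism.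
-/

set_option autoImplicit false
set_option linter.style.haveILetI false
universe u

open AlgebraicGeometry CategoryTheory CategoryTheory.Limits TopologicalSpace Opposite

namespace Groth.Agent.Dual.H370.KillStalk

open Groth.Agent.Ega1.SubSheaf Groth.Agent.Ega1.ClosedKill Groth.Agent.Ega1
  Groth.Agent.Dual.H370.KillSub Groth.Agent.Dual.H370.HomOKill
  Groth.Agent.CycB.StalkExact Groth.Agent.Fdesc.PullbackStalk

section Algebra

open TensorProduct

variable {R S M : Type*} [CommRing R] [CommRing S] [Algebra R S] [AddCommGroup M] [Module R M]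

/-- The elements killed by all `a j`. -/
def ann {ι : Type*} (a : ι → R) : Submodule R M where
  carrier := {m | ∀ j, a j • m = 0}
  add_mem' hx hy j := by rw [smul_add, hx j, hy j, add_zero]
  zero_mem' j := smul_zero _
  smul_mem' c m hm j := by rw [smul_comm, hm j, smul_zero]

theorem mem_ann {ι : Type*} (a : ι → R) (m : M) : m ∈ ann a ↔ ∀ j, a j • m = 0 := Iff.rfl

theorem mem_range_lTensor [Module.Flat R S] {ι : Type*} [Finite ι] (a : ι → R) (t : S ⊗[R] M)
    (h : ∀ j, a j • t = 0) : t ∈ LinearMap.range ((ann (M := M) a).subtype.lTensor S) := by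
  classical
  have := Fintype.ofFinite ι
  let φ : M →ₗ[R] (ι → M) := LinearMap.pi fun j => a j • LinearMap.id
  have hφ : Function.Exact (ann (M := M) a).subtype φ := by
    intro m
    constructor
    · intro hm
      exact ⟨⟨m, fun j => congrFun hm j⟩, rfl⟩
    · rintro ⟨⟨m, hm⟩, rfl⟩
      exact funext hm
  have h1 := Module.Flat.lTensor_exact S hφ
  refine (h1 t).1 ?_
  apply (TensorProduct.piRight R R S (fun _ : ι => M)).injective
  rw [map_zero]
  have key : (TensorProduct.piRight R R S (fun _ : ι => M)).toLinearMap ∘ₗ (φ.lTensor S) =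
      LinearMap.pi fun j => a j • LinearMap.id := by
    ext s m j
    simp [φ, TensorProduct.tmul_smul]
  have h2 := LinearMap.congr_fun key t
  refine h2.trans ?_
  funext j
  exact h j

end Algebra

variable {X Z : Scheme.{u}} (i : Z ⟶ X) [IsClosedImmersion i] [Dual3.HasHomO i]

/-- An element of `F_x` killed by generators of the ideal of `i` comes from `i_* Hom(O_Z, F)`. -/
theorem mem_range_stalk_ev (F : X.Modules) {U : X.affineOpens} {ι : Type*} [Finite ι]
    (a : ι → Γ(X, U.1)) (ha : i.ker.ideal U = Ideal.span (Set.range a)) (x : X) (hx : x ∈ U.1)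
    (m : F.presheaf.stalk x) (hm : ∀ j, X.presheaf.germ U.1 x hx (a j) • m = 0) :
    ∃ n, stalkLin (ev i F) x n = m := by
  obtain ⟨V, hVU, hxV, s, rfl⟩ := ModGerm.exists_germ F m hx
  have h1 : ∀ j, ∃ (W : X.Opens) (_ : x ∈ W) (hW : W ≤ V),
      X.presheaf.map (homOfLE (hW.trans hVU)).op (a j) • F.presheaf.map (homOfLE hW).op s = 0 := by
    intro j
    have h2 : ModGerm.germ F V x hxV (X.presheaf.map (homOfLE hVU).op (a j) • s) = 0 := by
      rw [ModGerm.germ_smul, ModGerm.germ_res_ring]
      exact hm j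
    obtain ⟨W, hxW, hW, h3⟩ := ModGerm.germ_eq_zero F hxV _ h2
    refine ⟨W, hxW, hW, ?_⟩
    rw [ModGerm.map_smul', ← ConcreteCategory.comp_apply, ← Functor.map_comp] at h3
    exact h3
  choose W hxW hWV hW using h1
  let T : X.Opens := V ⊓ (⨅ j, W j)
  have hxT : x ∈ T := ⟨hxV, by
    change x ∈ ((⨅ j, W j : X.Opens) : Set X)
    rw [Opens.coe_iInf]
    exact Set.mem_iInter.2 hxW⟩
  have hTV : T ≤ V := inf_le_left
  have hTW : ∀ j, T ≤ W j := fun j => inf_le_right.trans (iInf_le _ j)
  have h4 : F.presheaf.map (homOfLE hTV).op s ∈ (killSub i.ker F).obj T := by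
    refine mem_killSub_of_generators a ha (hTV.trans hVU) _ fun j => ?_
    have h5 := congrArg (F.presheaf.map (homOfLE (hTW j)).op) (hW j)
    rw [ModGerm.map_smul', map_zero, ← ConcreteCategory.comp_apply, ← Functor.map_comp,
      ← ConcreteCategory.comp_apply, ← Functor.map_comp] at h5
    exact h5
  obtain ⟨t, ht⟩ := (mem_killSub_iff i F _).1 h4
  refine ⟨((Scheme.Modules.pushforward i).obj ((Dual3.homO i).obj F)).presheaf.germ T x hxT t, ?_⟩
  rw [stalkLin_germ, ht]
  exact ModGerm.germ_res F hTV hxT s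

/-- The stalks of `i_* G` are killed by sections of the ideal of `i` (composed with a map). -/
theorem smul_stalk_of_kills {M F : X.Modules} (hM : Kills i.ker M) (φ : M ⟶ F) {U : X.Opens}
    (a : Γ(X, U)) (ha : i.app U a = 0) (x : X) (hx : x ∈ U) (t : M.presheaf.stalk x) :
    X.presheaf.germ U x hx a • stalkLin φ x t = 0 := by
  obtain ⟨V, hVU, hxV, s, rfl⟩ := ModGerm.exists_germ M t hx
  obtain ⟨_, ⟨T, hT, rfl⟩, hxT, hTV⟩ :=
    X.isBasis_affineOpens.exists_subset_of_mem_open (show x ∈ (V : Set X) from hxV) V.2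
  have hTV' : T ≤ V := hTV
  have h1 : (X.presheaf.map (homOfLE (hTV'.trans hVU)).op a : Γ(X, T)) ∈ i.ker.ideal ⟨T, hT⟩ := by
    rw [Scheme.Hom.ker_apply, RingHom.mem_ker]
    refine (ConcreteCategory.congr_hom (i.naturality (homOfLE (hTV'.trans hVU)).op) a).trans ?_
    refine (congrArg (Z.presheaf.map ((Opens.map i.base).map
      (homOfLE (hTV'.trans hVU))).op).hom ha).trans (map_zero _)
  have h2 := hM ⟨T, hT⟩ _ h1 (M.presheaf.map (homOfLE hTV').op s)
  have h3 := congrArg (ModGerm.germ M T x hxT) h2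
  rw [ModGerm.germ_smul, map_zero, ModGerm.germ_res, ModGerm.germ_res_ring] at h3
  rw [← map_smul]
  exact (congrArg (stalkLin φ x) h3).trans (map_zero _)

end Groth.Agent.Dual.H370.KillStalk
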