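import Groth.Agent.Ega1.SubSheaf
import Groth.Agent.Ega1.ClosedKill

/-!
# The subsheaf of sections killed by an ideal sheaf

* `killSub J F : Sub F`: sections of `F` killed by the ideal sheaf `J`.
* `kills_killSub`, `exists_lift_killSub`.
* `mem_range_stalk`: stalks of `killSub J F` for a locally finitely generated ideal.
-/

set_option autoImplicit false
universe u

open AlgebraicGeometry CategoryTheory TopologicalSpace Opposite

namespace Groth.Agent.Dual.H370.KillSub

open Groth.Agent.Ega1.SubSheaf Groth.Agent.Ega1.ClosedKill Groth.Agent.Ega1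

variable {X : Scheme.{u}} (J : X.IdealSheafData) (F : X.Modules)

/-- The sections of `F` killed by `J`. -/
noncomputable def killSub : Sub F where
  obj U :=
    { carrier := {s | ∀ (W : X.affineOpens) (hW : W.1 ≤ U) (a : Γ(X, W.1)), a ∈ J.ideal W →
        a • res F hW s = 0}
      add_mem' := fun {s t} hs ht W hW a ha => by
        rw [map_add, smul_add, hs W hW a ha, ht W hW a ha, add_zero]
      zero_mem' := fun W hW a ha => by rw [map_zero, smul_zero]
      smul_mem' := fun c s hs W hW a ha => by
        rw [res_smul, smul_comm, hs W hW a ha, smul_zero] }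
  map_mem {U V} h {s} hs W hW a ha := by
    rw [res_res]
    exact hs W (hW.trans h) a ha
  local_mem {U} s h W hW a ha := by
    refine section_ext F _ _ fun x hx => ?_
    obtain ⟨V, hV, hxV, hs⟩ := h x (hW hx)
    obtain ⟨_, ⟨T, hT, rfl⟩, hxT, hTV⟩ :=
      X.isBasis_affineOpens.exists_subset_of_mem_open (show x ∈ W.1 ⊓ V from ⟨hx, hxV⟩)
        (W.1 ⊓ V).2
    have hTW : T ≤ W.1 := fun z hz => (hTV hz).1
    have hTV' : T ≤ V := fun z hz => (hTV hz).2
    refine ⟨T, hTW, hxT, ?_⟩
    rw [map_zero, res_smul, res_res, ← res_res F hV hTV']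
    refine hs ⟨T, hT⟩ hTV' _ ?_
    exact J.ideal_le_comap_ideal (U := ⟨T, hT⟩) (V := W) hTW ha

theorem mem_killSub {U : X.Opens} {s : Γ(F, U)} : s ∈ (killSub J F).obj U ↔
    ∀ (W : X.affineOpens) (hW : W.1 ≤ U) (a : Γ(X, W.1)), a ∈ J.ideal W →
        a • res F hW s = 0 := Iff.rfl

theorem kills_killSub : Kills J (killSub J F).toModules := by
  intro U a ha s
  apply (killSub J F).ι_app_injective U
  rw [app_smul', map_zero]
  have h := (killSub J F).ι_app_mem s U le_rfl a ha
  rwa [res_self] at h

variable {J F}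

theorem exists_lift_killSub {M : X.Modules} (hM : Kills J M) (φ : M ⟶ F) :
    ∃ ψ : M ⟶ (killSub J F).toModules, ψ ≫ (killSub J F).ι = φ := by
  refine exists_lift φ (killSub J F).ι fun U s => ?_
  rw [← (killSub J F).mem_iff_exists, mem_killSub]
  intro W hW a ha
  rw [← app_res, ← app_smul', hM W a ha, map_zero]

/-- A section over a subset of an affine open `U` killed by generators of `J(U)` is killed by `J`. -/
theorem mem_killSub_of_generators {U : X.affineOpens} {ι : Type*} (a : ι → Γ(X, U.1))
    (ha : J.ideal U = Ideal.span (Set.range a)) {V : X.Opens} (hV : V ≤ U.1) (s : Γ(F, V))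
    (hs : ∀ j, X.presheaf.map (homOfLE hV).op (a j) • s = 0) : s ∈ (killSub J F).obj V := by
  rw [mem_killSub]
  intro W hW b hb
  have h1 := J.map_ideal (U := W) (V := U) (hW.trans hV)
  rw [← h1, ha, Ideal.map_span] at hb
  refine Submodule.span_induction (p := fun b _ => b • res F hW s = 0) ?_ ?_ ?_ ?_ hb
  · rintro _ ⟨_, ⟨j, rfl⟩, rfl⟩
    have h2 := congrArg (res F hW) (hs j)
    rw [res_smul, map_zero, ← ConcreteCategory.comp_apply, ← Functor.map_comp] at h2
    exact h2
  · exact zero_smul _ _
  · intro x y _ _ hx hy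
    rw [add_smul, hx, hy, add_zero]
  · intro c x _ hx
    rw [smul_eq_mul, mul_smul, hx, smul_zero]

end Groth.Agent.Dual.H370.KillSub
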