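import Groth.Agent.Dual.H370.Acyc
import Groth.Agent.Cohder.RDPlusAcyc

/-!
# Flat base change for `RHom(O_Z, -)` on `D^+(O_X)`
-/

set_option autoImplicit false
universe u

open AlgebraicGeometry CategoryTheory CategoryTheory.Limits

attribute [local instance] HasDerivedCategory.standard

namespace Groth.Agent.Dual.H370.Main

open Groth.Agent.PerfB.FlatPull Groth.Agent.Dual.H370.PullKill Groth.Agent.Dual.H370.Acyc
  Groth.Agent.Dual.H337.RDQ

variable {Z X Z' X' : Scheme.{u}} {i : Z ⟶ X} [IsClosedImmersion i] {f : X' ⟶ X} {i' : Z' ⟶ X'}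
  [IsClosedImmersion i'] {g : Z' ⟶ Z} [Dual3.HasHomO i] [Dual3.HasHomO i']

/-- Flat base change for `RHom(O_Z, -)`: for `i` a closed immersion into a locally Noetherian scheme and `f` flat,
`g^* RHom(O_Z, K) ≅ RHom(O_{Z'}, f^* K)` for every bounded below `K`. -/
theorem nonempty_iso (hsq : IsPullback g i' i f) [IsLocallyNoetherian X] [Flat f] [Flat g]
    [EnoughInjectives X.Modules] [EnoughInjectives X'.Modules]
    (K : DerivedCategory.Plus X.Modules) (M : DerivedCategory.Plus X'.Modules)
    (e : M.obj ≅ (pullbackD f).obj K.obj) :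
    Nonempty ((pullbackD g).obj ((Dual3.RHomOPlus i).obj K).obj ≅
      ((Dual3.RHomOPlus i').obj M).obj) := by
  obtain ⟨a, ha⟩ := K.property
  have hK : K.IsGE a := (K.isGE_ι_obj_iff a).1 ha
  obtain ⟨L, hL, ⟨eL⟩⟩ := DerivedCategory.Plus.exists_injective_nonempty_iso K a
  let I' : CochainComplex.Plus X.Modules := (InjectiveObject.ι _).mapCochainComplexPlus.obj L
  let I : CochainComplex X.Modules ℤ := I'.obj
  let fI' : CochainComplex.Plus X'.Modules :=
    (Scheme.Modules.pullback f).mapCochainComplexPlus.obj I'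
  -- the left hand side
  let l1 : ((Dual3.RHomOPlus i).obj K).obj ≅ DerivedCategory.Q.obj
      (((Dual3.homO i).mapHomologicalComplex (ComplexShape.up ℤ)).obj I) :=
    DerivedCategory.Plus.ι.mapIso ((Dual3.RHomOPlus i).mapIso eL.symm) ≪≫ isoQ (Dual3.homO i) L
  let l2 : (pullbackD g).obj ((Dual3.RHomOPlus i).obj K).obj ≅ DerivedCategory.Q.obj
      (((Dual3.homO i ⋙ Scheme.Modules.pullback g).mapHomologicalComplex
        (ComplexShape.up ℤ)).obj I) :=
    (pullbackD g).mapIso l1 ≪≫ pullbackDQ g _ ≪≫ DerivedCategory.Q.mapIso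
      ((Groth.Agent.Dual.H337.ProjC.mapComp (Dual3.homO i) (Scheme.Modules.pullback g)).symm.app I)
  -- the right hand side
  let r1 : (DerivedCategory.Plus.Q.obj fI').obj ≅ M.obj :=
    (DerivedCategory.quotientCompQhIso X'.Modules).app fI'.obj ≪≫
      (pullbackDQ f I).symm ≪≫ (pullbackD f).mapIso
        (((DerivedCategory.quotientCompQhIso X.Modules).app I).symm ≪≫
          DerivedCategory.Plus.ι.mapIso eL) ≪≫ e.symm
  let r2 : DerivedCategory.Plus.Q.obj fI' ≅ M := DerivedCategory.Plus.ι.preimageIso r1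
  have hun : IsIso ((Dual3.homO i').rightDerivedFunctorPlusUnit.app
      ((HomotopyCategory.Plus.quotient X'.Modules).obj fI')) := by
    apply Groth.Agent.Cohder.RDPlusAcyc.isIso_unit_app
    intro m k hk
    have : Injective (I.X m) := (L.obj.X m).property
    exact isZero_rightDerived i i' hsq (I.X m) k hk
  let r3 : ((Dual3.RHomOPlus i').obj (DerivedCategory.Plus.Q.obj fI')).obj ≅
      DerivedCategory.Q.obj (((Dual3.homO i').mapHomologicalComplex (ComplexShape.up ℤ)).obj
        fI'.obj) :=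
    DerivedCategory.Plus.ι.mapIso (asIso ((Dual3.homO i').rightDerivedFunctorPlusUnit.app
      ((HomotopyCategory.Plus.quotient X'.Modules).obj fI'))).symm ≪≫
    (DerivedCategory.quotientCompQhIso Z'.Modules).app
      (((Dual3.homO i').mapHomologicalComplex (ComplexShape.up ℤ)).obj fI'.obj)
  refine ⟨l2 ≪≫ DerivedCategory.Q.mapIso
    ((NatIso.mapHomologicalComplex (homOBC hsq) (ComplexShape.up ℤ)).app I ≪≫
      (Groth.Agent.Dual.H337.ProjC.mapComp (Scheme.Modules.pullback f) (Dual3.homO i')).app I) ≪≫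
    r3.symm ≪≫ DerivedCategory.Plus.ι.mapIso ((Dual3.RHomOPlus i').mapIso r2)⟩

end Groth.Agent.Dual.H370.Main
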