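import Groth.Agent.Dcoh.PerfDual
import Groth.Agent.Dcoh.MonAdj
import Groth.Agent.Dcoh.MonLpull182
import Groth.Agent.Dcoh.MonPull292
import Groth.Agent.PerfC.RHomPC346
import Groth.Agent.PerfB.FlatPull

/-!
# `RHom` and pullback

* `nonempty_rhPull`: `Lf^* RHom(K, L) ≅ RHom(Lf^*K, Lf^*L)` for `K` perfect;
* `nonempty_HD_rhPull`: for `f` flat, `K` approximated by a strictly perfect complex and `L` bounded below,
  `f^* H^i RHom(K, L) ≅ H^i RHom(f^*K, f^*L)` in a range of degrees;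
* `isZero_HD_rh_pull`: for `f` flat, `K` pseudo-coherent and `L` bounded below, `H^i RHom(f^*K, f^*L) = 0` if
  `H^i RHom(K, L) = 0`.
-/

set_option autoImplicit false

universe u

open CategoryTheory CategoryTheory.Limits AlgebraicGeometry Pretriangulated

attribute [local instance] HasDerivedCategory.standard

namespace Groth.Agent.Dual.H370.RHPull

open Groth.Agent.PerfC.RHomD Groth.Agent.PerfC.DTens Groth.Agent.PerfC.RHomPC346
  Groth.Agent.Dcoh.LocalD Groth.Agent.PerfB.FlatPull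

variable {X Y : Scheme.{u}}

section Perf

open scoped Groth.Agent.Dcoh.MonCat Groth.Agent.Dcoh.ModD
open MonoidalCategory

/-- `Lf^* RHom(K, L) ≅ RHom(Lf^*K, Lf^*L)` for `K` perfect. -/
theorem nonempty_rhPull (f : X ⟶ Y) [DCoh.HasLpull f] (K L : DCoh.D Y) (hK : DCoh.IsPerfect K) :
    Nonempty ((DCoh.Lpull f).obj ((RH K).obj L) ≅
      (RH ((DCoh.Lpull f).obj K)).obj ((DCoh.Lpull f).obj L)) := by
  let _ : (Scheme.Modules.pullback f).Monoidal := Groth.Agent.Dcoh.MonPull.monPull f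
  let _ : (DCoh.Lpull f).Monoidal := Groth.Agent.Dcoh.MonLpull182.lpullMonoidal f
  obtain ⟨K', -, ⟨h⟩⟩ := Groth.Agent.Dcoh.PerfDual.exists_exactPairing K hK
  let _ : ExactPairing ((DCoh.Lpull f).obj K) ((DCoh.Lpull f).obj K') :=
    Groth.Agent.Dcoh.DualMap.mapPairing (DCoh.Lpull f) K K'
  obtain ⟨a⟩ := Groth.Agent.Dcoh.MonAdj.nonempty_dual K'
    (Groth.Agent.Dcoh.PerfDual.nonempty_flipIso K) (rhAdj K)
  obtain ⟨b⟩ := Groth.Agent.Dcoh.MonAdj.nonempty_dual ((DCoh.Lpull f).obj K')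
    (Groth.Agent.Dcoh.PerfDual.nonempty_flipIso ((DCoh.Lpull f).obj K))
    (rhAdj ((DCoh.Lpull f).obj K))
  exact ⟨(DCoh.Lpull f).mapIso (a.symm.app L) ≪≫
    (Functor.Monoidal.μIso (DCoh.Lpull f) L K').symm ≪≫ b.app ((DCoh.Lpull f).obj L)⟩

end Perf

/-- `f^* RHom(K, L) ≅ RHom(f^*K, f^*L)` for `K` perfect and `f` flat. -/
theorem nonempty_rhPullD (f : X ⟶ Y) [Flat f] (K L : DCoh.D Y) (hK : DCoh.IsPerfect K) :
    Nonempty ((pullbackD f).obj ((RH K).obj L) ≅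
      (RH ((pullbackD f).obj K)).obj ((pullbackD f).obj L)) := by
  have : DCoh.HasLpull f := Groth.Agent.PerfC.LpullFlat.hasLpull f
  obtain ⟨e⟩ := nonempty_rhPull f K L hK
  exact ⟨(lpullIso f).symm.app _ ≪≫ e ≪≫ rhIso ((lpullIso f).symm.app K) _ ≪≫
    (RH _).mapIso ((lpullIso f).app L)⟩

/-- `f^* H^i RHom(K, L) ≅ H^i RHom(f^*K, f^*L)` for `K` approximated by a strictly perfect complex, `L`
bounded below and `f` flat. -/
theorem nonempty_HD_rhPull (f : X ⟶ Y) [Flat f] {K L : DCoh.D Y} (a m i : ℤ) (hK : StrPC m Y K)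
    (hL : L.IsGE a) (hi : i < a - m) :
    Nonempty ((Scheme.Modules.pullback f).obj (DCoh.HD ((RH K).obj L) i) ≅
      DCoh.HD ((RH ((pullbackD f).obj K)).obj ((pullbackD f).obj L)) i) := by
  obtain ⟨E, α, hE, h1, h2⟩ := hK
  obtain ⟨C, g, k, hT⟩ := distinguished_cocone_triangle α
  have hC : C.IsLE (m - 1) := isLE_cone hT m h1 h2
  have i1 := isIso_HD_rhMap hT L a m i hC hL hi
  have hT' : (pullbackD f).mapTriangle.obj (Triangle.mk α g k) ∈ distTriang (DCoh.D X) :=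
    Functor.map_distinguished _ _ hT
  have hC' : ((pullbackD f).obj C).IsLE (m - 1) :=
    Groth.Agent.PerfA.ExactD.isLE_map (Scheme.Modules.pullback f) C (m - 1)
  have hL' : ((pullbackD f).obj L).IsGE a :=
    Groth.Agent.PerfA.ExactD.isGE_map (Scheme.Modules.pullback f) L a
  have i2 := isIso_HD_rhMap hT' ((pullbackD f).obj L) a m i hC' hL' hi
  have hP : DCoh.IsPerfect (DerivedCategory.Q.obj E) := isPerfect_of_strPerf ⟨E, hE, ⟨Iso.refl _⟩⟩
  obtain ⟨e⟩ := nonempty_rhPullD f (DerivedCategory.Q.obj E) L hP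
  exact ⟨(Scheme.Modules.pullback f).mapIso
      (asIso ((DerivedCategory.homologyFunctor Y.Modules i).map (rhMap α L))) ≪≫
    (HDpullback f _ i).symm ≪≫ (DerivedCategory.homologyFunctor X.Modules i).mapIso e ≪≫
    (@asIso _ _ _ _ ((DerivedCategory.homologyFunctor X.Modules i).map
      (rhMap ((pullbackD f).map α) ((pullbackD f).obj L))) i2).symm⟩

/-- For `f` flat, `K` pseudo-coherent and `L` bounded below, `H^i RHom(f^*K, f^*L) = 0` if
`H^i RHom(K, L) = 0`. -/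
theorem isZero_HD_rh_pull (f : X ⟶ Y) [Flat f] {K L : DCoh.D Y}
    (hK : ∀ m : ℤ, DCoh.IsPseudoCoherentD m K) (a : ℤ) (hL : L.IsGE a) (i : ℤ)
    (h : IsZero (DCoh.HD ((RH K).obj L) i)) :
    IsZero (DCoh.HD ((RH ((pullbackD f).obj K)).obj ((pullbackD f).obj L)) i) := by
  refine Groth.Agent.PerfA.Restrict.isZero_of_restrict_opens _ fun x => ?_
  obtain ⟨U, hx, hU⟩ := (isPseudoCoherentD_iff_locally (a - i - 1) K).1 (hK _) (f x)
  refine ⟨f ⁻¹ᵁ U, hx, ?_⟩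
  have hL' : ((DCoh.restrictD U.ι).obj L).IsGE a :=
    Groth.Agent.Dcoh.MapDer.isGE_map (Scheme.Modules.restrictFunctor U.ι) a L
  obtain ⟨e⟩ := nonempty_rhRes U.ι K L
  obtain ⟨e'⟩ := nonempty_rhRes (f ⁻¹ᵁ U).ι ((pullbackD f).obj K) ((pullbackD f).obj L)
  have h1 : IsZero (DCoh.HD ((RH ((DCoh.restrictD U.ι).obj K)).obj
      ((DCoh.restrictD U.ι).obj L)) i) :=
    ((Scheme.Modules.restrictFunctor U.ι).map_isZero h).of_iso
      ((DerivedCategory.homologyFunctor _ i).mapIso e.symm ≪≫ HDRestrict U.ι ((RH K).obj L) i)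
  obtain ⟨c⟩ := nonempty_HD_rhPull (f ∣_ U) a (a - i - 1) i hU hL' (by lia)
  have h2 := ((Scheme.Modules.pullback (f ∣_ U)).map_isZero h1).of_iso c.symm
  let b (M : DCoh.D Y) : (DCoh.restrictD (f ⁻¹ᵁ U).ι).obj ((pullbackD f).obj M) ≅
      (pullbackD (f ∣_ U)).obj ((DCoh.restrictD U.ι).obj M) :=
    (pullbackDRestrict f U).app M
  refine h2.of_iso ?_
  exact (HDRestrict (f ⁻¹ᵁ U).ι _ i).symm ≪≫ (DerivedCategory.homologyFunctor _ i).mapIso
    (e' ≪≫ rhIso (b K).symm _ ≪≫ (RH _).mapIso (b L))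

end Groth.Agent.Dual.H370.RHPull
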